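import Mathlib
import Cfsg.Agent.Lib.Helper23.SnB.NQDefs

set_option autoImplicit false

/-! # S2986, sub-package [NQ-QUAD]

A `p`-element normalizing a finite `p`-group `Q = Y W` acts quadratically on `Q / Z` when
`W / Z` and `Y / Z` have order `p ^ 2`. -/

namespace Cfsg.Agent.Lib.Helper1.SnB

open scoped commutatorElement Pointwise

universe u

/-- in a nilpotent group a subgroup with `⁅M, ⊤⁆ = M` is trivial -/
theorem eq_bot_of_commutator_top_eq {T : Type u} [Group T] [hnil : Group.IsNilpotent T]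
    (M : Subgroup T) (hM : ⁅M, (⊤ : Subgroup T)⁆ = M) : M = ⊥ := by
  have h : ∀ i, M ≤ (⊤ : Subgroup T).lowerCentralSeries i := by
    intro i
    induction i with
    | zero => exact le_top
    | succ i ih =>
      rw [Subgroup.lowerCentralSeries_succ]
      calc M = ⁅M, (⊤ : Subgroup T)⁆ := hM.symm
        _ ≤ ⁅(⊤ : Subgroup T).lowerCentralSeries i, ⊤⁆ := Subgroup.commutator_mono ih le_rfl
  obtain ⟨n, hn⟩ := Subgroup.nilpotent_iff_lowerCentralSeries.mp hnil
  have hle := h n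
  rw [hn] at hle
  exact le_bot_iff.mp hle

/-- `card V * V.relIndex H = card H` for `V ≤ H` -/
theorem card_mul_relIndex_of_le {X : Type u} [Group X] {V H : Subgroup X} (h : V ≤ H) :
    Nat.card V * V.relIndex H = Nat.card H := by
  have h1 := Subgroup.relIndex_mul_relIndex (⊥ : Subgroup X) V H bot_le h
  rwa [Subgroup.relIndex_bot_left, Subgroup.relIndex_bot_left] at h1

/-- one commutator step lowers the order of a normal subgroup of a finite `p`-group -/
theorem card_commutator_top {T : Type u} [Group T] [Finite T] [Group.IsNilpotent T] {p : ℕ}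
    (hp : p.Prime) (M : Subgroup T) [hMn : M.Normal] (j : ℕ) (hc : Nat.card M = p ^ (j + 1)) :
    ∃ i, i ≤ j ∧ Nat.card ↥⁅M, (⊤ : Subgroup T)⁆ = p ^ i := by
  have hle : ⁅M, (⊤ : Subgroup T)⁆ ≤ M := Subgroup.commutator_le_left M ⊤
  have hd : Nat.card ↥⁅M, (⊤ : Subgroup T)⁆ ∣ p ^ (j + 1) := by
    rw [← hc]
    exact Subgroup.card_dvd_of_le hle
  obtain ⟨i, hi, hci⟩ := (Nat.dvd_prime_pow hp).1 hd
  refine ⟨i, ?_, hci⟩
  by_contra hij
  have hi' : i = j + 1 := by omega
  have heq : ⁅M, (⊤ : Subgroup T)⁆ = M :=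
    Subgroup.eq_of_le_of_card_ge hle (by rw [hci, hc, hi'])
  have hbot := eq_bot_of_commutator_top_eq M heq
  rw [hbot, Subgroup.card_bot] at hc
  have h2 := hp.two_le
  have : 2 ≤ p ^ (j + 1) := le_trans h2 (Nat.le_self_pow (by omega) p)
  omega

/-- a normal subgroup of order `p ^ 2` of a finite `p`-group lies in the second centre -/
theorem comm_comm_eq_one_of_card {T : Type u} [Group T] [Finite T] {p : ℕ} [Fact p.Prime]
    (hT : IsPGroup p T) (M : Subgroup T) (hMn : M.Normal) (hcard : Nat.card M = p ^ 2)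
    (m : T) (hm : m ∈ M) (g h : T) : ⁅⁅m, g⁆, h⁆ = 1 := by
  have hp : p.Prime := Fact.out
  have hnil : Group.IsNilpotent T := hT.isNilpotent
  obtain ⟨i, hi, hci⟩ := card_commutator_top hp M 1 hcard
  have hmem : ⁅⁅m, g⁆, h⁆ ∈ ⁅⁅M, (⊤ : Subgroup T)⁆, (⊤ : Subgroup T)⁆ :=
    Subgroup.commutator_mem_commutator
      (Subgroup.commutator_mem_commutator hm (Subgroup.mem_top g)) (Subgroup.mem_top h)
  have hbot : ⁅⁅M, (⊤ : Subgroup T)⁆, (⊤ : Subgroup T)⁆ = ⊥ := by
    rcases Nat.lt_or_ge i 1 with h0 | h1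
    · have hi0 : i = 0 := by omega
      rw [hi0, pow_zero, Subgroup.card_eq_one] at hci
      rw [hci]
      exact Subgroup.commutator_bot_left _
    · have hi1 : i = 1 := by omega
      rw [hi1] at hci
      obtain ⟨i', hi', hci'⟩ := card_commutator_top hp ⁅M, (⊤ : Subgroup T)⁆ 0 hci
      have hi0 : i' = 0 := by omega
      rw [hi0, pow_zero, Subgroup.card_eq_one] at hci'
      exact hci'
  rw [hbot] at hmem
  exact Subgroup.mem_bot.mp hmem

/-- the internal version: everything normal in a finite `p`-group `T` -/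
theorem quad_internal {T : Type u} [Group T] [Finite T] {p : ℕ} [Fact p.Prime]
    (hT : IsPGroup p T) (Q W Y Z : Subgroup T) (hZn : Z.Normal) (hWn : W.Normal)
    (hYn : Y.Normal) (hZW : Z ≤ W) (hZY : Z ≤ Y)
    (hcW : Nat.card W = p ^ 2 * Nat.card Z) (hcY : Nat.card Y = p ^ 2 * Nat.card Z)
    (hcover : ∀ u ∈ Q, ∃ y ∈ Y, ∃ w ∈ W, u = y * w) :
    ⁅⁅Q, (⊤ : Subgroup T)⁆, (⊤ : Subgroup T)⁆ ≤ Z := by
  have hTq : IsPGroup p (T ⧸ Z) := hT.to_quotient Z
  have hZpos : 0 < Nat.card Z := Nat.card_pos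
  have hcardmap : ∀ M : Subgroup T, Z ≤ M → Nat.card M = p ^ 2 * Nat.card Z →
      Nat.card (M.map (QuotientGroup.mk' Z)) = p ^ 2 := by
    intro M hZM hc
    have h1 := Subgroup.relIndex_ker (K := M) (QuotientGroup.mk' Z)
    rw [QuotientGroup.ker_mk'] at h1
    have h2 := card_mul_relIndex_of_le hZM
    rw [hc, h1, mul_comm] at h2
    exact Nat.eq_of_mul_eq_mul_right hZpos h2
  have hcen : ∀ M : Subgroup T, M.Normal → Z ≤ M → Nat.card M = p ^ 2 * Nat.card Z →
      ∀ m ∈ M, ∀ g : T, ∀ x : T ⧸ Z,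
        Commute ⁅QuotientGroup.mk' Z m, QuotientGroup.mk' Z g⁆ x := by
    intro M hMn hZM hc m hm g x
    rw [← commutatorElement_eq_one_iff_commute]
    exact comm_comm_eq_one_of_card hTq (M.map (QuotientGroup.mk' Z))
      (Subgroup.Normal.map hMn _ (QuotientGroup.mk'_surjective Z)) (hcardmap M hZM hc) _
      (Subgroup.mem_map_of_mem _ hm) _ x
  have key : ⁅Q, (⊤ : Subgroup T)⁆ ≤
      (Subgroup.center (T ⧸ Z)).comap (QuotientGroup.mk' Z) := by
    rw [Subgroup.commutator_le]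
    intro u hu g _
    obtain ⟨y, hy, w, hw, rfl⟩ := hcover u hu
    rw [Subgroup.mem_comap, Subgroup.mem_center_iff]
    intro x
    have hc1 := hcen W hWn hZW hcW w hw g
    have hc2 := hcen Y hYn hZY hcY y hy g
    have e : QuotientGroup.mk' Z ⁅y * w, g⁆ =
        ⁅QuotientGroup.mk' Z w, QuotientGroup.mk' Z g⁆ *
          ⁅QuotientGroup.mk' Z y, QuotientGroup.mk' Z g⁆ := by
      rw [map_commutatorElement, map_mul]
      have h3 := (hc1 (QuotientGroup.mk' Z y)).eq
      calc ⁅QuotientGroup.mk' Z y * QuotientGroup.mk' Z w, QuotientGroup.mk' Z g⁆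
          = QuotientGroup.mk' Z y * ⁅QuotientGroup.mk' Z w, QuotientGroup.mk' Z g⁆ *
              (QuotientGroup.mk' Z y)⁻¹ * ⁅QuotientGroup.mk' Z y, QuotientGroup.mk' Z g⁆ := by
            simp only [commutatorElement_def]
            group
        _ = ⁅QuotientGroup.mk' Z w, QuotientGroup.mk' Z g⁆ * QuotientGroup.mk' Z y *
              (QuotientGroup.mk' Z y)⁻¹ * ⁅QuotientGroup.mk' Z y, QuotientGroup.mk' Z g⁆ := by
            rw [h3]
        _ = ⁅QuotientGroup.mk' Z w, QuotientGroup.mk' Z g⁆ *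
              ⁅QuotientGroup.mk' Z y, QuotientGroup.mk' Z g⁆ := by
            rw [mul_inv_cancel_right]
    rw [e]
    exact (((hc1 x).mul_left (hc2 x)).eq).symm
  rw [Subgroup.commutator_le]
  intro v hv h _
  have hv' := key hv
  rw [Subgroup.mem_comap, Subgroup.mem_center_iff] at hv'
  have h1 : QuotientGroup.mk' Z ⁅v, h⁆ = 1 := by
    rw [map_commutatorElement, commutatorElement_eq_one_iff_commute]
    exact (hv' (QuotientGroup.mk' Z h)).symm
  exact (QuotientGroup.eq_one_iff _).1 h1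

/-- an element conjugating a finite subgroup into itself normalizes it -/
theorem mem_normalizer_of_finite {G : Type u} [Group G] (H : Subgroup G) [Finite ↥H] (g : G)
    (h : ∀ a ∈ H, g * a * g⁻¹ ∈ H) : g ∈ Subgroup.normalizer (H : Set G) := by
  rw [Subgroup.mem_normalizer_iff]
  intro q
  refine ⟨h q, ?_⟩
  intro hq
  have hinj : Function.Injective (fun a : ↥H => (⟨g * a * g⁻¹, h a a.2⟩ : ↥H)) := by
    intro a a' e
    have e' : g * (a : G) * g⁻¹ = g * (a' : G) * g⁻¹ := congrArg Subtype.val e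
    apply Subtype.ext
    have e2 := mul_right_cancel e'
    exact mul_left_cancel e2
  obtain ⟨a, ha⟩ := (Finite.injective_iff_surjective.mp hinj) ⟨g * q * g⁻¹, hq⟩
  have e' : g * (a : G) * g⁻¹ = g * q * g⁻¹ := congrArg Subtype.val ha
  have e2 : (a : G) = q := mul_left_cancel (mul_right_cancel e')
  rw [← e2]
  exact a.2

theorem pkgQuad : Cfsg.Agent.Lib.Helper23.SnB.PkgQuad.{u} := by
  intro G _ p hp Q W Y Z hQfin b k hb hQ hZW hZY hWQ hYQ hnorm hcW hcY hcover
  have hWfin : Finite ↥W :=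
    Finite.of_injective (Subgroup.inclusion hWQ) (Subgroup.inclusion_injective hWQ)
  have hYfin : Finite ↥Y :=
    Finite.of_injective (Subgroup.inclusion hYQ) (Subgroup.inclusion_injective hYQ)
  have hZQ : Z ≤ Q := hZW.trans hWQ
  have hZfin : Finite ↥Z :=
    Finite.of_injective (Subgroup.inclusion hZQ) (Subgroup.inclusion_injective hZQ)
  have hbn := hnorm b (Or.inr rfl)
  have hbQ : b ∈ Subgroup.normalizer (Q : Set G) := mem_normalizer_of_finite Q b hbn.1
  have hbW : b ∈ Subgroup.normalizer (W : Set G) := mem_normalizer_of_finite W b hbn.2.1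
  have hbY : b ∈ Subgroup.normalizer (Y : Set G) := mem_normalizer_of_finite Y b hbn.2.2.1
  have hbZ : b ∈ Subgroup.normalizer (Z : Set G) := mem_normalizer_of_finite Z b hbn.2.2.2
  have hQW : Q ≤ Subgroup.normalizer (W : Set G) := fun g hg =>
    mem_normalizer_of_finite W g (hnorm g (Or.inl hg)).2.1
  have hQY : Q ≤ Subgroup.normalizer (Y : Set G) := fun g hg =>
    mem_normalizer_of_finite Y g (hnorm g (Or.inl hg)).2.2.1
  have hQZ : Q ≤ Subgroup.normalizer (Z : Set G) := fun g hg =>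
    mem_normalizer_of_finite Z g (hnorm g (Or.inl hg)).2.2.2
  have hzQ : Subgroup.zpowers b ≤ Subgroup.normalizer (Q : Set G) := by
    rw [Subgroup.zpowers_le]; exact hbQ
  obtain ⟨Γ, hΓ⟩ : ∃ Γ : Subgroup G, Γ = Subgroup.zpowers b ⊔ Q := ⟨_, rfl⟩
  have hQΓ : Q ≤ Γ := by rw [hΓ]; exact le_sup_right
  have hbΓ : Subgroup.zpowers b ≤ Γ := by rw [hΓ]; exact le_sup_left
  have hΓW : Γ ≤ Subgroup.normalizer (W : Set G) := by
    rw [hΓ]; exact sup_le (by rw [Subgroup.zpowers_le]; exact hbW) hQW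
  have hΓY : Γ ≤ Subgroup.normalizer (Y : Set G) := by
    rw [hΓ]; exact sup_le (by rw [Subgroup.zpowers_le]; exact hbY) hQY
  have hΓZ : Γ ≤ Subgroup.normalizer (Z : Set G) := by
    rw [hΓ]; exact sup_le (by rw [Subgroup.zpowers_le]; exact hbZ) hQZ
  have hzp : IsPGroup p ↥(Subgroup.zpowers b) := by
    rintro ⟨x, hx⟩
    obtain ⟨i, rfl⟩ := Subgroup.mem_zpowers_iff.mp hx
    refine ⟨k, ?_⟩
    apply Subtype.ext
    show (b ^ i) ^ p ^ k = 1
    rw [← zpow_natCast, ← zpow_mul, mul_comm, zpow_mul, zpow_natCast, hb, one_zpow]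
  have hΓp : IsPGroup p ↥Γ := by
    rw [hΓ]; exact IsPGroup.to_sup_of_normal_right' hzp hQ hzQ
  have hΓfin : Finite ↥Γ := by
    have hcoe : ((Γ : Subgroup G) : Set G) = (Subgroup.zpowers b : Set G) * (Q : Set G) := by
      rw [hΓ]; exact Subgroup.coe_mul_of_left_le_normalizer_right _ _ hzQ
    have hfo : IsOfFinOrder b :=
      isOfFinOrder_iff_pow_eq_one.2 ⟨p ^ k, pow_pos hp.out.pos k, hb⟩
    have hzfin : (Subgroup.zpowers b : Set G).Finite := finite_zpowers.2 hfo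
    have hfin : ((Γ : Subgroup G) : Set G).Finite := by
      rw [hcoe]; exact Set.Finite.mul hzfin (Set.toFinite _)
    exact hfin.to_subtype
  have hZ'n : (Z.subgroupOf Γ).Normal :=
    (Subgroup.normal_subgroupOf_iff_le_normalizer (hZQ.trans hQΓ)).2 hΓZ
  have hW'n : (W.subgroupOf Γ).Normal :=
    (Subgroup.normal_subgroupOf_iff_le_normalizer (hWQ.trans hQΓ)).2 hΓW
  have hY'n : (Y.subgroupOf Γ).Normal :=
    (Subgroup.normal_subgroupOf_iff_le_normalizer (hYQ.trans hQΓ)).2 hΓY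
  have hcard : ∀ M : Subgroup G, M ≤ Γ → Nat.card ↥(M.subgroupOf Γ) = Nat.card ↥M :=
    fun M hM => Nat.card_congr (Subgroup.subgroupOfEquivOfLe hM).toEquiv
  have hint := quad_internal hΓp (Q.subgroupOf Γ) (W.subgroupOf Γ) (Y.subgroupOf Γ)
    (Z.subgroupOf Γ) hZ'n hW'n hY'n
    (by intro x hx; rw [Subgroup.mem_subgroupOf] at hx ⊢; exact hZW hx)
    (by intro x hx; rw [Subgroup.mem_subgroupOf] at hx ⊢; exact hZY hx)
    (by rw [hcard W (hWQ.trans hQΓ), hcard Z (hZQ.trans hQΓ)]; exact hcW)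
    (by rw [hcard Y (hYQ.trans hQΓ), hcard Z (hZQ.trans hQΓ)]; exact hcY)
    (by
      intro u hu
      rw [Subgroup.mem_subgroupOf] at hu
      obtain ⟨y, hy, w, hw, e⟩ := hcover _ hu
      exact ⟨⟨y, hQΓ (hYQ hy)⟩, by rw [Subgroup.mem_subgroupOf]; exact hy,
        ⟨w, hQΓ (hWQ hw)⟩, by rw [Subgroup.mem_subgroupOf]; exact hw, Subtype.ext e⟩)
  have hQ' : Q ≤ (Q.subgroupOf Γ).map Γ.subtype := by
    rw [Subgroup.subgroupOf_map_subtype]; exact le_inf le_rfl hQΓ
  have hz' : Subgroup.zpowers b ≤ (⊤ : Subgroup ↥Γ).map Γ.subtype := by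
    rw [← MonoidHom.range_eq_map, Subgroup.range_subtype]; exact hbΓ
  calc ⁅⁅Q, Subgroup.zpowers b⁆, Subgroup.zpowers b⁆
      ≤ ⁅⁅(Q.subgroupOf Γ).map Γ.subtype, (⊤ : Subgroup ↥Γ).map Γ.subtype⁆,
          (⊤ : Subgroup ↥Γ).map Γ.subtype⁆ :=
        Subgroup.commutator_mono (Subgroup.commutator_mono hQ' hz') hz'
    _ = (⁅⁅Q.subgroupOf Γ, (⊤ : Subgroup ↥Γ)⁆, (⊤ : Subgroup ↥Γ)⁆).map Γ.subtype := by
        rw [Subgroup.map_commutator, Subgroup.map_commutator]
    _ ≤ (Z.subgroupOf Γ).map Γ.subtype := Subgroup.map_mono hint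
    _ ≤ Z := by rw [Subgroup.subgroupOf_map_subtype]; exact inf_le_left

end Cfsg.Agent.Lib.Helper1.SnB
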